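import Cfsg.Agent.FGS.FZ.M0
import Cfsg.Agent.FGS.FZ.Tor
import Cfsg.Agent.SOLV.Fitting

/-!
# Theorem Z, module lemma: passing to the faithful model
-/

set_option autoImplicit false
set_option linter.unusedSectionVars false
open Cfsg Subgroup CL.Th CL.MSS CL.B2
open CL.B2.PUq
open scoped commutatorElement IsMulCommutative

namespace CL.FZ.MG1
open Mo

theorem trans4 {W : Type*} [CommGroup W] [Finite W] (two : ∀ w : W, w * w = 1) {x : MulAut W} (ho : Odd (orderOf x))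
    (h4 : Nat.card (cm x) ≤ 4) {u u' : W} (hu : u ∈ cm x) (hu' : u' ∈ cm x) (n : u ≠ 1) (n' : u' ≠ 1) :
    ∃ m : ℕ, (x ^ m) u = u' := by
  classical
  by_contra! hc
  have z : ∀ w ∈ cm x, w ∈ fx x → w = 1 := fun w a b => mem_bot.1 ((fx_inf_cm two ho).le ⟨b, a⟩)
  have i : Iv x (cm x) := iv_of_cm_le le_rfl
  have a1 : x u ≠ u := fun e => n (z u hu e)
  have a2 : x (x u) ≠ u := fun e => n (z u hu (by rw [← fx_sq ho]; exact e))
  have a3 : x (x u) ≠ x u := fun e => a1 (x.injective e)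
  have a4 : x u ≠ 1 := by simpa using n
  have a5 : x (x u) ≠ 1 := by simpa using n
  have b0 : u ≠ u' := by simpa using hc 0
  have b1 : x u ≠ u' := by simpa using hc 1
  have b2 : x (x u) ≠ u' := by simpa [sq] using hc 2
  have c : ({1, u, x u, x (x u), u'} : Finset W).card = 5 := by
    rw [Finset.card_insert_of_notMem (by simp [n.symm, n'.symm, a4.symm, a5.symm]),
      Finset.card_insert_of_notMem (by simp [a1.symm, a2.symm, b0]),
      Finset.card_insert_of_notMem (by simp [a3.symm, b1]), Finset.card_pair b2]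
  have d : (({1, u, x u, x (x u), u'} : Finset W) : Set W) ⊆ (cm x : Set W) := by
    intro w hw
    simp only [Finset.coe_insert, Finset.coe_singleton, Set.mem_insert_iff, Set.mem_singleton_iff] at hw
    rcases hw with rfl | rfl | rfl | rfl | rfl
    exacts [one_mem _, hu, i _ hu, i _ (i _ hu), hu']
  have e := Set.ncard_le_ncard d
  rw [Set.ncard_coe_finset, c, ← Nat.card_coe_set_eq] at e
  exact absurd (e.trans h4) (by norm_num)

variable {X : Type*} [Group X] [Finite X] {A G M S V B P : Subgroup X}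

theorem one_iff {g : 𝐍 V} : V.normalizerMonoidHom g = 1 ↔ (g : X) ∈ 𝐂 V := by
  rw [← MonoidHom.mem_ker, normalizerMonoidHom_ker]; rfl

theorem br_nrm {Γ : Type*} [Group Γ] {N : Subgroup X} {π : N →* Γ} {U : Subgroup Γ} (h : br π A ≤ 𝐍 U) (hA : A ≤ N) :
    A ≤ 𝐍 (pre π U) :=
  (map_subgroupOf_eq_of_le hA).ge.trans ((map_mono ((map_le_iff_le_comap.1 h).trans (le_normalizer_comap π))).trans
    (le_normalizer_map _))

theorem br_solv {Γ : Type*} [Group Γ] {N : Subgroup X} (π : N →* Γ) (h : M ≤ N) (hs : Group.IsSolvable M) :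
    Group.IsSolvable (br π M) :=
  have := Group.isSolvable_of_surjective (f := (subgroupOfEquivOfLe h).symm.toMonoidHom) (MulEquiv.surjective _)
  Group.isSolvable_of_surjective (π.subgroupMap_surjective _)

theorem odd_fit {Γ : Type*} [Group Γ] [Finite Γ] {H : Subgroup Γ} (h : O2 H = ⊥) : Odd (Nat.card (fittingOf H)) := by
  obtain ⟨P⟩ : Nonempty (Sylow 2 (fittingOf H)) := inferInstance
  have k : (P : Subgroup (fittingOf H)).map (fittingOf H).subtype ≤ O2 H :=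
    le_oP (P.2.map _) ((map_subtype_le _).trans (fittingOf_le H)) ((le_normalizer_fittingOf H).trans
      (normalizer_le_normalizer_sylow_of_isNilpotent (isNilpotent_fittingOf H) P))
  rw [h, le_bot_iff, map_eq_bot_iff_of_injective _ (subtype_injective _)] at k
  have := P.not_dvd_index
  rw [k, index_bot] at this
  exact Nat.not_even_iff_odd.1 fun e => this (even_iff_two_dvd.1 e)

variable [IsMulCommutative V]

theorem hm (ni : NoInv A G) (hM : M ≤ G) (AM : A ≤ 𝐍 M) (hs : Group.IsSolvable M) (VM : V ≤ M) (MV : M ≤ 𝐍 V)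
    (AV : A ≤ 𝐍 V) (hV : IsElementaryAbelian 2 V)
    (red : ∀ P ≤ M, M ≤ 𝐍 P → (∀ p ∈ P, ∃ n : ℕ, p ^ 2 ^ n ∈ 𝐂 V) → P ≤ 𝐂 V) {T : Subgroup (MulAut V)}
    (hT : IsPGroup 2 T) (hl : T ≤ br V.normalizerMonoidHom M) : Hm (fittingOf (br V.normalizerMonoidHom M)) T := by
  set σ := V.normalizerMonoidHom with hσ
  have two : ∀ w : V, w * w = 1 := fun w => Subtype.ext ((pow_two _).symm.trans (hV.2 _ w.2))
  have o2 : O2 (br σ M) = ⊥ := eq_bot_iff.2 fun y hy => by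
    obtain ⟨g, hg, rfl⟩ := oP_le _ hy
    refine mem_bot.2 (one_iff.2 (red (M ⊓ pre σ (O2 (br σ M))) inf_le_left
      (le_normalizer_inf le_normalizer (br_nrm (oP_normal _) MV)) ?_ ⟨hg, g, hy, rfl⟩))
    rintro _ ⟨-, p, hp, rfl⟩
    obtain ⟨n, hn⟩ := isPGroup_iff_forall_mem.1 (oP_isPGroup (p := 2) (br σ M)) _ hp
    exact ⟨n, one_iff.1 (show σ (p ^ 2 ^ n) = 1 by rw [map_pow, hn])⟩
  have od := odd_fit o2
  have oo : ∀ x ∈ fittingOf (br σ M), Odd (orderOf x) := fun x hx =>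
    Odd.of_dvd_nat od (by rw [← Nat.card_zpowers]; exact card_dvd_of_le (zpowers_le.2 hx))
  refine ⟨two, od, isNilpotent_fittingOf _, hT, hl.trans (le_normalizer_fittingOf _), eq_bot_iff.2 fun x hx => ?_,
    fun x hx h4 => ?_⟩
  · obtain ⟨n, hn⟩ := isPGroup_iff_forall_mem.1 hT x hx.1
    exact mem_bot.2 (orderOf_eq_one_iff.1 (Nat.Coprime.eq_one_of_dvd ((Nat.coprime_two_right.2 (oo x
      (centralizer_fittingOf_inf_le (br_solv σ MV hs) ⟨hx.2, hl hx.1⟩))).pow_right n) (orderOf_dvd_of_pow_eq_one hn)))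
  obtain ⟨k, hk, rfl⟩ := fittingOf_le _ hx
  have nM : ∀ {D : Subgroup X}, D ≤ 𝐍 M → D ≤ 𝐍 V → D ≤ 𝐍 (M ⊓ (V ⊔ pre σ (fittingOf (br σ M))) : Subgroup X) := fun a b =>
    le_normalizer_inf a (le_normalizer_sup b (br_nrm ((br_norm a MV).trans (normalizer_le_normalizer_fittingOf _)) b))
  have pl : V ≤ pre σ (fittingOf (br σ M)) := fun v hv =>
    ⟨⟨v, le_normalizer hv⟩, mem_comap.2 (by rw [one_iff.2 (Th.elemAb_le_centralizer hV hv)]; exact one_mem _), rfl⟩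
  rw [sup_of_le_right pl] at nM
  let _ := Tor.act V
  have key : ∀ u ∈ ⁅V, zpowers (k : X)⁆, ∃ h : u ∈ V, (⟨u, h⟩ : V) ∈ cm (σ k) := fun u hu => by
    have m : u ∈ V := commutator_le_left_of_normalizes (zpowers_le.2 k.2) hu
    obtain ⟨w, e⟩ := (Tor.Z_iff (k := k) (w := Additive.ofMul ⟨u, m⟩)).2 hu
    exact ⟨m, mem_cm.2 ⟨w.toMul, Subtype.ext ((Tor.d_val k w).symm.trans (congrArg (fun y : Additive V => (y.toMul : X)) e))⟩⟩
  have b := tor (k := k) ni (inf_le_left.trans hM) (nM AM AV)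
    (Group.isSolvable_of_isSolvable_injective (f := inclusion inf_le_left) (inclusion_injective _))
    (le_inf VM pl) (inf_le_left.trans MV) AV hV (fun E hE h1 h2 => absurd (fun e he => ?_) h2) ⟨hk, k, hx, rfl⟩
    fun u hu u' hu' n n' => ?_
  · exact one_iff.2 fun v hv => ((commutator_eq_bot_iff_le_centralizer.1 b hv) _ (mem_zpowers _)).symm
  · obtain ⟨-, p, hp, rfl⟩ := hE he
    have e2 : σ p ^ 2 = 1 := by rw [sq, ← map_mul]; exact one_iff.2 (h1 _ he)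
    exact one_iff.1 (orderOf_eq_one_iff.1 (Nat.Coprime.eq_one_of_dvd (Nat.coprime_two_right.2 (oo _ hp))
      (orderOf_dvd_of_pow_eq_one e2)))
  · obtain ⟨m, a⟩ := key u hu
    obtain ⟨m', a'⟩ := key u' hu'
    obtain ⟨j, e⟩ := trans4 two (oo _ hx) h4 a a' (fun e => n (congrArg Subtype.val e)) fun e => n' (congrArg Subtype.val e)
    rw [← map_pow] at e
    exact ⟨j, congrArg Subtype.val e⟩

theorem main (ni : NoInv A G) (hM : M ≤ G) (AM : A ≤ 𝐍 M)
    (hs : Group.IsSolvable M) (syl : SylIn 2 S M) (AS : A ≤ 𝐍 S) (VM : V ≤ M) (MV : M ≤ 𝐍 V) (AV : A ≤ 𝐍 V)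
    (hV : IsElementaryAbelian 2 V) (red : ∀ P ≤ M, M ≤ 𝐍 P → (∀ p ∈ P, ∃ n : ℕ, p ^ 2 ^ n ∈ 𝐂 V) → P ≤ 𝐂 V)
    (hB : B ≤ M) (sq : ∀ b ∈ B, b * b ∈ 𝐂 V) (hn : ¬ B ≤ 𝐂 V)
    (rank : ∀ F S B : Subgroup (MulAut V), Hm F S → B ≤ S → IsElementaryAbelian 2 B → B ≠ ⊥ →
      (fxs B).index ≤ Nat.card B ^ 2 → ∃ t ∈ B, Tt S t)
    (prod : ∀ (F S : Subgroup (MulAut V)) (t : MulAut V), Hm F S → Tt S t →
      ∃ z ∈ S, z * z = 1 ∧ z ≠ 1 ∧ ∀ g ∈ 𝐍 S, g * z = z * g) : (𝐂 V).relIndex B ^ 2 < (𝐂 B).relIndex V := by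
  set σ := V.normalizerMonoidHom with hσ
  by_contra! hc
  have s2 : ∀ b ∈ br σ B, b * b = 1 := by
    rintro _ ⟨b, hb, rfl⟩
    rw [← map_mul]; exact one_iff.2 (sq _ hb)
  have el : IsElementaryAbelian 2 (br σ B) := Th.elemAb_iff.2 ⟨fun a ha b hb => by
    have := s2 _ (mul_mem ha hb)
    rw [← inv_eq_iff_mul_eq_one, mul_inv_rev, inv_eq_of_mul_eq_one_right (s2 a ha), inv_eq_of_mul_eq_one_right (s2 b hb)] at this
    exact this.symm, fun b hb => (pow_two b).trans (s2 b hb)⟩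
  have c1 : Nat.card (br σ B) = (𝐂 V).relIndex B := by
    rw [br, ← relIndex_ker, hσ, normalizerMonoidHom_ker, relIndex_subgroupOf (hB.trans MV)]
  have c2 : fxs (br σ B) = (𝐂 B).subgroupOf V := by
    ext w
    rw [mem_fxs]
    refine ⟨fun h b hb => mul_inv_eq_iff_eq_mul.1 (congrArg Subtype.val (h _ (mem_br (x := ⟨b, MV (hB hb)⟩) hb))), ?_⟩
    rintro h _ ⟨b, hb, rfl⟩
    exact Subtype.ext (mul_inv_eq_iff_eq_mul.2 (h _ hb))
  obtain ⟨t, ht, tt⟩ := rank _ _ _ (hm ni hM AM hs VM MV AV hV red (Th.elemAb_isPGroup el) (br_mono hB)) le_rfl el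
    (fun e => hn fun b hb => one_iff.1 (mem_bot.1 (e.le (mem_br (x := ⟨b, MV (hB hb)⟩) hb)))) (by rw [c1, c2]; exact hc)
  have sy : SylIn 2 (br σ S) (br σ M) := (syl.subgroupOf MV).map σ
  obtain ⟨g, -, e⟩ := sy.exists_le_conj (isPGroup_zpowers (k := 1) ((pow_two t).trans tt.sq)) (zpowers_le.2 (br_mono hB ht))
  obtain ⟨_, ⟨s₀, hs₀, rfl⟩, rfl⟩ := e (mem_zpowers t)
  obtain ⟨_, ⟨s, hs', rfl⟩, z2, z1, zc⟩ := prod _ _ (σ s₀) (hm ni hM AM hs VM MV AV hV red sy.pgroup sy.le)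
    ⟨mem_br hs₀, by simpa using tt.sq, by simpa using tt.ne, (card_cm_cj g _).ge.trans tt.le⟩
  refine z1 (one_iff.2 (ni S (syl.le.trans hM) AS (isSolvable_of_isPGroup syl.pgroup) (S ⊓ 𝐂 V) inf_le_left
    (le_normalizer_inf le_normalizer (le_normalizer_centralizer (syl.le.trans MV)))
    (le_normalizer_inf AS (le_normalizer_centralizer AV)) s hs' ⟨mul_mem hs' hs', one_iff.1 ((map_mul σ s s).trans z2)⟩
    fun a ha => ⟨1, one_mem _, mul_mem (by rw [one_mul]; exact conj_mem_of_normalizes AS ha hs') (S.inv_mem hs'), ?_⟩).2)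
  refine (one_iff (g := 1 * ⟨a, AV ha⟩ * s * (1 * ⟨a, AV ha⟩)⁻¹ * s⁻¹)).1 ?_
  rw [one_mul, map_mul, map_mul, map_mul, zc _ (br_norm AS (syl.le.trans MV) (mem_br (x := ⟨a, AV ha⟩) ha))]
  simp [hσ]

end CL.FZ.MG1
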